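import Cfsg.Agent.H917.FP.Chr
import Cfsg.Agent.H141.Rg.Defs

/-!
# Fixed point ratios from character ratios (S5717)

* `fpr_of_rat` : if `|χ(z)| ≤ ρ χ(1)` for all nontrivial irreducible characters of the perfect group `S`, then
  `fpr Ω {z} ≤ fpr Ω S + 1 / (d + 1) + ρ` for every finite `S`-set `Ω` (`d` = minimal degree).
* `fpr_outer` : an element `x` of an overgroup normalising `S`, one Cauchy-Schwarz step with `Y = S`.
-/

set_option autoImplicit false

namespace Cfsg.Agent.H523.FprRat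

open Cfsg MulAction Cfsg.Agent.Characters.Core Cfsg.Agent.H514.DP Cfsg.Agent.H686.CharKit Cfsg.Agent.H917.FP
  Cfsg.Agent.H141.Rg
open scoped ComplexConjugate

universe u v

section Char

variable {S : Type u} [Group S] {Ω : Type v} [MulAction S Ω]

theorem fpr_of_rat [Finite S] [Finite Ω] (hperf : commutator S = ⊤) {d : ℕ} (hd0 : 0 < d)
    (hd : MinDeg S d) {z : S} {ρ : ℝ} (hρ : 0 ≤ ρ) (hz : Rat ρ z) :
    fpr Ω {z} ≤ fpr Ω (Set.univ : Set S) + 1 / ((d : ℝ) + 1) + ρ := by
  classical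
  have : Fintype S := Fintype.ofFinite S
  have : Fintype Ω := Fintype.ofFinite Ω
  have : Fintype (IrrCharacter S) := by
    have := finite_irr (G := S)
    exact Fintype.ofFinite _
  have hdR : (0 : ℝ) < d := by exact_mod_cast hd0
  rcases Nat.eq_zero_or_pos (Nat.card Ω) with h0 | h0
  · have h1 : ∀ B : Set S, fpr Ω B = 0 := fun B => by unfold fpr; rw [h0]; simp
    rw [h1, h1]
    positivity
  have hN : (0 : ℝ) < Nat.card Ω := by exact_mod_cast h0
  have hS : (0 : ℝ) < Nat.card S := by exact_mod_cast Nat.card_pos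
  obtain ⟨m, dg, hm, hdg, hdg0, hsum, hm1⟩ := perm_comb (S := S) (Ω := Ω)
  set ε : IrrCharacter S := ⟨1, isIrr_one⟩ with hε
  have hψ1 : ∀ ψ : IrrCharacter S, ψ ≠ ε → (ψ : S → ℂ) 1 ≠ 1 := by
    intro ψ hψ h3
    exact hψ (Subtype.ext (eq_one_of_perf hperf ψ.2 h3))
  -- the number of orbits
  have hr : (m ε : ℝ) ≤ (Nat.card {w : Ω // ∀ a ∈ (Set.univ : Set S), a • w = w} : ℝ) +
      (Nat.card Ω : ℝ) / ((d : ℝ) + 1) := by
    have h1 : (m ε : ℝ) * Nat.card S = ∑ w : Ω, (Nat.card (stabilizer S w) : ℝ) := by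
      rw [finsum_eq_sum_of_fintype] at hm1
      exact_mod_cast hm1
    have h2 : ∀ w : Ω, (Nat.card (stabilizer S w) : ℝ) ≤
        ((if ∀ a ∈ (Set.univ : Set S), a • w = w then 1 else 0) + 1 / ((d : ℝ) + 1)) * Nat.card S := by
      intro w
      by_cases hw : ∀ a ∈ (Set.univ : Set S), a • w = w
      · rw [if_pos hw, add_mul, one_mul]
        have h3 : (Nat.card (stabilizer S w) : ℝ) ≤ Nat.card S := by
          exact_mod_cast Nat.le_of_dvd Nat.card_pos (Subgroup.card_subgroup_dvd_card _)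
        have h4 : 0 ≤ 1 / ((d : ℝ) + 1) * Nat.card S := by positivity
        linarith
      · rw [if_neg hw, zero_add]
        have h3 : stabilizer S w ≠ ⊤ := by
          intro h
          apply hw
          intro a _
          have : a ∈ stabilizer S w := by rw [h]; trivial
          exact this
        have h4 := index_ge hperf hd h3
        have h5 := Subgroup.index_mul_card (stabilizer S w)
        have h6 : ((d : ℝ) + 1) * (Nat.card (stabilizer S w) : ℝ) ≤ Nat.card S := by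
          rw [← h5]
          push_cast
          have : ((d : ℝ) + 1) ≤ ((stabilizer S w).index : ℝ) := by exact_mod_cast h4
          nlinarith [this, (Nat.cast_nonneg (Nat.card (stabilizer S w)) : (0 : ℝ) ≤ _)]
        rw [div_mul_eq_mul_div, one_mul, le_div_iff₀ (by positivity)]
        linarith
    have h3 : (m ε : ℝ) * Nat.card S ≤ ((Nat.card {w : Ω // ∀ a ∈ (Set.univ : Set S), a • w = w} : ℝ) +
      (Nat.card Ω : ℝ) / ((d : ℝ) + 1)) * Nat.card S := by
      rw [h1]
      refine (Finset.sum_le_sum fun w _ => h2 w).trans (le_of_eq ?_)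
      rw [← Finset.sum_mul, Finset.sum_add_distrib, Finset.sum_boole, Finset.sum_const,
        Finset.card_univ, nsmul_eq_mul, ← Nat.card_eq_fintype_card (α := Ω),
        Nat.card_eq_fintype_card (α := {w : Ω // ∀ a ∈ (Set.univ : Set S), a • w = w}),
        Fintype.card_subtype]
      ring
    exact le_of_mul_le_mul_right h3 hS
  have hM : ((∑ ψ ∈ Finset.univ.erase ε, m ψ * dg ψ : ℕ) : ℝ) ≤ (Nat.card Ω : ℝ) := by
    have h1 : (∑ ψ ∈ Finset.univ.erase ε, m ψ * dg ψ) ≤ Nat.card Ω := by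
      rw [hsum]
      exact Finset.sum_le_sum_of_subset_of_nonneg (Finset.erase_subset _ _) fun _ _ _ => Nat.zero_le _
    exact_mod_cast h1
  have hfix : (Nat.card {w : Ω // ∀ a ∈ ({z} : Set S), a • w = w} : ℝ) ≤
      m ε + ρ * (∑ ψ ∈ Finset.univ.erase ε, m ψ * dg ψ : ℕ) := by
    have h1 : Nat.card {w : Ω // ∀ a ∈ ({z} : Set S), a • w = w} = Nat.card (fixedBy Ω z) := by
      refine Nat.card_congr (Equiv.subtypeEquivRight fun w => ?_)
      simp
    rw [h1]
    have h2 := hm z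
    rw [← Finset.add_sum_erase _ _ (Finset.mem_univ ε)] at h2
    have h3 : ‖((Nat.card (fixedBy Ω z) : ℕ) : ℂ)‖ ≤ m ε + ρ * (∑ ψ ∈ Finset.univ.erase ε, m ψ * dg ψ : ℕ) := by
      rw [h2]
      refine (norm_add_le _ _).trans (add_le_add ?_ ?_)
      · have : (ε : S → ℂ) z = 1 := rfl
        rw [this, mul_one, Complex.norm_natCast]
      · refine (norm_sum_le _ _).trans ?_
        push_cast
        rw [Finset.mul_sum]
        refine Finset.sum_le_sum fun ψ hψ => ?_
        rw [norm_mul, Complex.norm_natCast]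
        have h4 := hz ψ ψ.2 ⟨1, hψ1 ψ (Finset.mem_erase.1 hψ).1⟩
        rw [hdg ψ, Complex.natCast_re] at h4
        calc (m ψ : ℝ) * ‖(ψ : S → ℂ) z‖ ≤ (m ψ : ℝ) * (ρ * dg ψ) :=
              mul_le_mul_of_nonneg_left h4 (Nat.cast_nonneg _)
          _ = ρ * (m ψ * dg ψ) := by ring
    rwa [Complex.norm_natCast] at h3
  have h5 := mul_le_mul_of_nonneg_left hM hρ
  unfold fpr
  rw [div_le_iff₀ hN, add_mul, add_mul, div_mul_cancel₀ _ hN.ne']
  rw [div_mul_eq_mul_div, one_mul]
  linarith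

end Char

section Outer

variable {G : Type u} [Group G] (Ω : Type v) [MulAction G Ω]

/-- one Cauchy-Schwarz step over a subgroup `T` normalised by `x` -/
theorem fpr_outer [Finite Ω] (T : Subgroup G) [Finite T] {x : G} (hx : ∀ t ∈ T, x * t * x⁻¹ ∈ T) {δ : ℝ} (hδ : 0 ≤ δ)
    (h : ∀ t ∈ T, t ≠ 1 → fpr Ω {t} ≤ δ) :
    fpr Ω {x} ^ 2 ≤ δ + (Nat.card ↥(T ⊓ Subgroup.centralizer ({x} : Set G)) : ℝ) / Nat.card T := by
  have h1 := cs_comm Ω T x {y : T | x * ((y : G) * x⁻¹ * (y : G)⁻¹) = 1} δ hδ (fun y hy =>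
    h _ (by
      have h1 := hx y y.2
      have h2 := T.mul_mem h1 (T.inv_mem y.2)
      have h3 : x * (y : G) * x⁻¹ * (y : G)⁻¹ = x * ((y : G) * x⁻¹ * (y : G)⁻¹) := by group
      rwa [h3] at h2) hy)
  refine h1.trans (le_of_eq ?_)
  have e : ∀ y : G, x * (y * x⁻¹ * y⁻¹) = 1 ↔ y ∈ Subgroup.centralizer ({x} : Set G) := by
    intro y
    rw [Subgroup.mem_centralizer_singleton_iff]
    constructor
    · intro h4
      have h5 : x * y * x⁻¹ * y⁻¹ = 1 := by rw [← h4]; group
      rw [mul_inv_eq_one, mul_inv_eq_iff_eq_mul] at h5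
      exact h5.symm
    · intro h4
      have h5 : x * (y * x⁻¹ * y⁻¹) = (x * y) * x⁻¹ * y⁻¹ := by group
      rw [h5, ← h4]
      group
  have e2 : Nat.card ({y : T | x * ((y : G) * x⁻¹ * (y : G)⁻¹) = 1} : Set T) =
      Nat.card ↥(T ⊓ Subgroup.centralizer ({x} : Set G)) :=
    Nat.card_congr
      { toFun := fun y => ⟨y.1.1, y.1.2, (e _).1 y.2⟩
        invFun := fun y => ⟨⟨y.1, y.2.1⟩, (e _).2 y.2.2⟩
        left_inv := fun y => rfl
        right_inv := fun y => rfl }
  rw [e2]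

end Outer

end Cfsg.Agent.H523.FprRat
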